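import Mathlib
import Cfsg.Agent.H504.ZerosIso

/-!
Columns of the character table grouped by element orders (S4895).
-/

set_option autoImplicit false

namespace Cfsg.Agent.H681.ZerosCol

open Cfsg Cfsg.Agent.H504.Zeros Cfsg.Agent.H504.ZeroTI
open Cfsg.Agent.Characters.Core

universe u

/-- `n` non-conjugate elements with orders in `O` and at most `b` non-zero entries in the columns. -/
def Col (G : Type u) [Group G] (O : Finset ℕ) (n b : ℕ) : Prop :=
  ∃ s : Finset G, NonConj s ∧ s.card = n ∧ ∑ g ∈ s, nv g ≤ b ∧ ∀ g ∈ s, orderOf g ∈ O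

variable {G : Type u} [Group G]

theorem orderOf_eq_of_isConj {g h : G} (hc : IsConj g h) : orderOf g = orderOf h := by
  obtain ⟨c, rfl⟩ := isConj_iff.1 hc
  exact ((MulAut.conj c).orderOf_eq g).symm

theorem Col.union {O O' : Finset ℕ} {n n' b b' : ℕ} (h : Col G O n b) (h' : Col G O' n' b')
    (hd : Disjoint O O') : Col G (O ∪ O') (n + n') (b + b') := by
  classical
  obtain ⟨s, hs, hn, hb, ho⟩ := h
  obtain ⟨t, ht, hn', hb', ho'⟩ := h'
  have hne : ∀ g ∈ s, ∀ h ∈ t, orderOf g ≠ orderOf h := by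
    intro g hg h hh he
    exact Finset.disjoint_left.1 hd (ho g hg) (he ▸ ho' h hh)
  have hdisj : Disjoint s t := by
    refine Finset.disjoint_left.2 fun g hg hg' => ?_
    exact hne g hg g hg' rfl
  refine ⟨s ∪ t, ?_, ?_, ?_, ?_⟩
  · intro g hg h hh hc
    rcases Finset.mem_union.1 hg with hg | hg <;> rcases Finset.mem_union.1 hh with hh | hh
    · exact hs g hg h hh hc
    · exact absurd (orderOf_eq_of_isConj hc) (hne g hg h hh)
    · exact absurd (orderOf_eq_of_isConj hc).symm (hne h hh g hg)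
    · exact ht g hg h hh hc
  · rw [Finset.card_union_of_disjoint hdisj, hn, hn']
  · rw [Finset.sum_union hdisj]
    omega
  · intro g hg
    rcases Finset.mem_union.1 hg with hg | hg
    · exact Finset.mem_union_left _ (ho g hg)
    · exact Finset.mem_union_right _ (ho' g hg)

theorem col_one {x : G} {r b : ℕ} (hx : orderOf x = r) (hb : nv x ≤ b) : Col G {r} 1 b := by
  refine ⟨{x}, ?_, Finset.card_singleton _, by rwa [Finset.sum_singleton], ?_⟩
  · intro g hg h hh _
    rw [Finset.mem_singleton.1 hg, Finset.mem_singleton.1 hh]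
  · intro g hg
    rw [Finset.mem_singleton.1 hg, hx]
    exact Finset.mem_singleton_self _

theorem col_cc [Finite G] {A : Subgroup G} (hA : CC A) {r n e m : ℕ} (hr : r.Prime)
    (ha : Nat.card A = r) (hn : Nat.card G = r * n) (he : n % r = e) (hm : 2 ≤ m)
    (hem : r = e * m + 1) : Col G {r} m (m * (e + m)) := by
  have h1 := eIdx_eq_mod hA (by rw [ha]; exact hr.one_lt) (n := n) (by rw [hn, ha])
  rw [ha, he] at h1
  have hem' : Nat.card A = eIdx A * m + 1 := by rw [ha, h1, hem]
  obtain ⟨s, hs, hsc, hsA⟩ := exists_reps hA hem'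
  refine ⟨s, hs, hsc, ?_, ?_⟩
  · rw [← hsc, ← smul_eq_mul, ← Finset.sum_const, hsc, ← h1]
    exact Finset.sum_le_sum fun g hg => nv_le_of_cc hA hm hem' (hsA g hg).1 (hsA g hg).2
  · intro g hg
    have h3 : orderOf g ∣ r := by
      have := orderOf_dvd_natCard (⟨g, (hsA g hg).1⟩ : A)
      rwa [← Subgroup.orderOf_coe, ha] at this
    rcases (Nat.dvd_prime hr).1 h3 with h4 | h4
    · exact absurd (orderOf_eq_one_iff.1 h4) (hsA g hg).2
    · rw [h4]
      exact Finset.mem_singleton_self _

theorem Col.big [Finite G] {O : Finset ℕ} {n b k : ℕ} (h : Col G O n b)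
    (hk : k ≤ Nat.card (ConjClasses G)) (hn : 1 ≤ n) (hb : 7 + b ≤ (n - 1) * k) : Big G := by
  obtain ⟨s, hs, hsn, hsb, -⟩ := h
  refine big_of_cols s hs nv (fun g _ => le_rfl) k hk (by omega) ?_
  rw [hsn]
  omega

end Cfsg.Agent.H681.ZerosCol
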