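import Mathlib
import Cfsg.Agent.H681.ZerosCol
import Cfsg.Agent.H681.ZerosPSL2

/-!
Zeros in the character table of `PSL(2, 11)` (S4895, row PSL2).
-/

set_option autoImplicit false

namespace Cfsg.Agent.H681.ZerosPSL2

open Cfsg Cfsg.Agent.H504.Zeros Cfsg.Agent.H504.ZeroTI Cfsg.Agent.ClassicalGeometry.PSLTorus
open Cfsg.Agent.Characters.Core Cfsg.Agent.H681.ZerosCol Cfsg.Agent.SmallSimple.SelfCentSum
open scoped MatrixGroups

universe u

/-- an involution with centralizer of order twelve in a group with eight classes -/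
theorem nv_involution {G : Type u} [Group G] [Finite G] {t : G} (ht : orderOf t = 2)
    (hk : Nat.card (ConjClasses G) = 8)
    (hc : Nat.card (Subgroup.centralizer ({t} : Set G)) = 12) : nv t ≤ 7 := by
  classical
  have := finite_irr (G := G)
  have := Fintype.ofFinite (IrrCharacter G)
  have hint : ∀ χ : IrrCharacter G, ∃ k : ℤ, (χ : G → ℂ) t = k := by
    intro χ
    refine Cfsg.Agent.J3Type.CharTools.int_of_conj (isIrr_isCharacter χ.2) t ?_
    intro m hm
    rw [ht, Nat.coprime_two_right, Nat.odd_iff] at hm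
    have h1 : t ^ m = t := by
      rw [← pow_mod_orderOf, ht, hm, pow_one]
    rw [h1]
  choose v hv using hint
  have hsum : ∑ χ : IrrCharacter G, (v χ) ^ 2 = 12 := by
    have h1 := sum_norm_sq (G := G) t
    rw [hc] at h1
    have h2 : ((∑ χ : IrrCharacter G, (v χ) ^ 2 : ℤ) : ℝ) = ((12 : ℤ) : ℝ) := by
      push_cast
      rw [show (12 : ℝ) = ((12 : ℕ) : ℝ) by norm_num, ← h1]
      refine Finset.sum_congr rfl fun χ _ => ?_
      rw [hv, Complex.norm_intCast, sq_abs]
    exact_mod_cast h2
  have hcard : Fintype.card (IrrCharacter G) = 8 := by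
    rw [← hk, ← card_irr, Nat.card_eq_fintype_card]
  by_contra hlt
  push Not at hlt
  have hN : nv t = (Finset.univ.filter fun χ : IrrCharacter G => (χ : G → ℂ) t ≠ 0).card := by
    rw [nv, Nat.card_eq_fintype_card, Fintype.card_subtype]
  have hall : ∀ χ : IrrCharacter G, v χ ≠ 0 := by
    intro χ h0
    have h1 : (Finset.univ.filter fun χ : IrrCharacter G => (χ : G → ℂ) t ≠ 0).card <
        (Finset.univ : Finset (IrrCharacter G)).card := by
      refine Finset.card_lt_card ?_
      rw [Finset.filter_ssubset]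
      exact ⟨χ, Finset.mem_univ _, by rw [hv, h0]; simp⟩
    rw [Finset.card_univ, hcard, ← hN] at h1
    omega
  have h1 : ∀ χ : IrrCharacter G, 1 ≤ (v χ) ^ 2 := fun χ => by
    have := hall χ
    have : 0 < (v χ) ^ 2 := by positivity
    omega
  have h2 : ∀ χ : IrrCharacter G, (v χ) ^ 2 = 1 ∨ (v χ) ^ 2 = 4 := by
    intro χ
    have h3 : (v χ) ^ 2 ≤ 5 := by
      have h4 : ∑ ψ ∈ Finset.univ.erase χ, (v ψ) ^ 2 + (v χ) ^ 2 = 12 := by
        rw [← hsum, Finset.sum_erase_add _ _ (Finset.mem_univ χ)]
      have h5 : (7 : ℤ) ≤ ∑ ψ ∈ Finset.univ.erase χ, (v ψ) ^ 2 := by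
        have h6 : ∑ ψ ∈ Finset.univ.erase χ, (1 : ℤ) ≤ ∑ ψ ∈ Finset.univ.erase χ, (v ψ) ^ 2 :=
          Finset.sum_le_sum fun ψ _ => h1 ψ
        rw [Finset.sum_const, Finset.card_erase_of_mem (Finset.mem_univ _), Finset.card_univ, hcard] at h6
        simpa using h6
      omega
    have h4 : v χ ≤ 2 := by nlinarith
    have h5 : -2 ≤ v χ := by nlinarith
    have h6 := hall χ
    interval_cases v χ <;> simp_all
  have h3 : ∑ χ : IrrCharacter G, ((v χ) ^ 2 : ZMod 3) = ∑ χ : IrrCharacter G, (1 : ZMod 3) := by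
    refine Finset.sum_congr rfl fun χ _ => ?_
    rcases h2 χ with h | h
    · have : (((v χ) ^ 2 : ℤ) : ZMod 3) = ((1 : ℤ) : ZMod 3) := by rw [h]
      push_cast at this
      exact this
    · have : (((v χ) ^ 2 : ℤ) : ZMod 3) = ((4 : ℤ) : ZMod 3) := by rw [h]
      push_cast at this
      rw [this]
      decide
  have h4 : ∑ χ : IrrCharacter G, ((v χ) ^ 2 : ZMod 3) = ((12 : ℤ) : ZMod 3) := by
    rw [← hsum]
    push_cast
    rfl
  rw [h4, Finset.sum_const, Finset.card_univ, hcard] at h3
  revert h3
  decide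

variable {F : Type} [Field F] [Fintype F]

/-- the unipotent subgroup -/
def uS (F : Type) [Field F] : Multiplicative F →* Matrix.SpecialLinearGroup (Fin 2) F where
  toFun a := ⟨!![1, a.toAdd; 0, 1], by simp [Matrix.det_fin_two]⟩
  map_one' := by
    apply Subtype.ext
    ext i j
    fin_cases i <;> fin_cases j <;> simp
  map_mul' a b := by
    apply Subtype.ext
    change !![1, (a * b).toAdd; 0, 1] = !![1, a.toAdd; 0, 1] * !![1, b.toAdd; 0, 1]
    rw [Matrix.mul_fin_two]
    simp [add_comm]

def uH (F : Type) [Field F] : Multiplicative F →* Matrix.ProjectiveSpecialLinearGroup (Fin 2) F :=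
  (pr F).comp (uS F)

omit [Fintype F] in
theorem u00 (a : Multiplicative F) : (uS F a : Matrix (Fin 2) (Fin 2) F) 0 0 = 1 := rfl
omit [Fintype F] in
theorem u01 (a : Multiplicative F) : (uS F a : Matrix (Fin 2) (Fin 2) F) 0 1 = a.toAdd := rfl
omit [Fintype F] in
theorem u10 (a : Multiplicative F) : (uS F a : Matrix (Fin 2) (Fin 2) F) 1 0 = 0 := rfl
omit [Fintype F] in
theorem u11 (a : Multiplicative F) : (uS F a : Matrix (Fin 2) (Fin 2) F) 1 1 = 1 := rfl

omit [Fintype F] in
theorem uH_injective (h2 : (2 : F) ≠ 0) : Function.Injective (uH F) := by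
  rw [injective_iff_map_eq_one]
  intro a ha
  have h1 : pr F (uS F a) = 1 := ha
  rw [pr_eq_one_iff] at h1
  rcases h1 with h | h
  · have := congrArg (fun g : Matrix.SpecialLinearGroup (Fin 2) F => (g : Matrix (Fin 2) (Fin 2) F) 0 1) h
    have h3 : a.toAdd = 0 := this
    exact toAdd_eq_zero.1 h3
  · exfalso
    have := congrArg (fun g : Matrix.SpecialLinearGroup (Fin 2) F => (g : Matrix (Fin 2) (Fin 2) F) 0 0) h
    have h3 : (1 : F) = -1 := this
    apply h2
    linear_combination h3

omit [Fintype F] in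
theorem centralizer_uH (h2 : (2 : F) ≠ 0) {a : Multiplicative F} (ha : a ≠ 1) :
    Subgroup.centralizer ({uH F a} : Set (Matrix.ProjectiveSpecialLinearGroup (Fin 2) F)) =
      (uH F).range := by
  have ha0 : a.toAdd ≠ 0 := fun h => ha (toAdd_eq_zero.1 h)
  apply le_antisymm
  · intro y hy
    obtain ⟨B, rfl⟩ := pr_surjective F y
    have hxy : uH F a * pr F B = pr F B * uH F a := by
      rw [Subgroup.mem_centralizer_iff] at hy
      exact hy _ rfl
    have h5 : pr F (uS F a * B) = pr F (B * uS F a) := by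
      rw [map_mul, map_mul]
      exact hxy
    rw [pr_eq_iff] at h5
    have ent : ∀ {X Y : SL(2, F)}, X = Y → ∀ i j, X i j = Y i j := fun h i j => by rw [h]
    have hdet := B.det_coe
    rw [Matrix.det_fin_two] at hdet
    have hL : ∀ i j, (uS F a * B) i j =
        (uS F a : Matrix (Fin 2) (Fin 2) F) i 0 * B 0 j +
        (uS F a : Matrix (Fin 2) (Fin 2) F) i 1 * B 1 j := by
      intro i j
      rw [Matrix.SpecialLinearGroup.coe_mul, Matrix.mul_apply, Fin.sum_univ_two]
    have hR : ∀ i j, (B * uS F a) i j =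
        B i 0 * (uS F a : Matrix (Fin 2) (Fin 2) F) 0 j +
        B i 1 * (uS F a : Matrix (Fin 2) (Fin 2) F) 1 j := by
      intro i j
      rw [Matrix.SpecialLinearGroup.coe_mul, Matrix.mul_apply, Fin.sum_univ_two]
    rcases h5 with h5 | h5
    · have e00 := ent h5 0 0
      have e01 := ent h5 0 1
      rw [hL, hR, u00, u01, u10] at e00
      rw [hL, hR, u00, u01, u11] at e01
      have h10 : B 1 0 = 0 := by
        have h8 : a.toAdd * B 1 0 = 0 := by linear_combination e00
        exact (mul_eq_zero.1 h8).resolve_left ha0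
      have h11 : B 1 1 = B 0 0 := by
        have h8 : a.toAdd * (B 1 1 - B 0 0) = 0 := by linear_combination e01
        exact sub_eq_zero.1 ((mul_eq_zero.1 h8).resolve_left ha0)
      have h12 : B 0 0 * B 0 0 = 1 := by
        rw [h10, h11] at hdet
        linear_combination hdet
      rcases mul_self_eq_one_iff.1 h12 with h7 | h7
      · refine ⟨Multiplicative.ofAdd (B 0 1), ?_⟩
        show pr F _ = pr F B
        congr 1
        apply Subtype.ext
        ext i j
        fin_cases i <;> fin_cases j
        · exact h7.symm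
        · rfl
        · exact h10.symm
        · exact (h11.trans h7).symm
      · refine ⟨Multiplicative.ofAdd (-(B 0 1)), ?_⟩
        show pr F _ = pr F B
        rw [pr_eq_iff]
        right
        apply Subtype.ext
        ext i j
        fin_cases i <;> fin_cases j
        · show (1 : F) = - B 0 0
          rw [h7, neg_neg]
        · rfl
        · show (0 : F) = - B 1 0
          rw [h10, neg_zero]
        · show (1 : F) = - B 1 1
          rw [h11, h7, neg_neg]
    · exfalso
      have hn : ∀ i j, (-(B * uS F a)) i j = -((B * uS F a) i j) := fun i j => rfl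
      have e10 := ent h5 1 0
      have e00 := ent h5 0 0
      have e11 := ent h5 1 1
      rw [hL, hn, hR, u00, u10, u11] at e10
      rw [hL, hn, hR, u00, u01, u10] at e00
      rw [hL, hn, hR, u01, u10, u11] at e11
      have h10 : B 1 0 = 0 := by
        have h8 : 2 * B 1 0 = 0 := by linear_combination e10
        exact (mul_eq_zero.1 h8).resolve_left h2
      have h00 : B 0 0 = 0 := by
        rw [h10] at e00
        have h8 : 2 * B 0 0 = 0 := by linear_combination e00
        exact (mul_eq_zero.1 h8).resolve_left h2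
      rw [h10, h00] at hdet
      simp at hdet
  · rintro _ ⟨b, rfl⟩
    rw [Subgroup.mem_centralizer_iff]
    intro z hz
    rw [Set.mem_singleton_iff] at hz
    rw [hz, ← map_mul, ← map_mul, mul_comm]

theorem dih_center : ∀ x : DihedralGroup 6, x ∈ Subgroup.center (DihedralGroup 6) → x ^ 2 = 1 := by
  intro x hx
  rw [Subgroup.mem_center_iff] at hx
  revert x
  decide

theorem dih_cube : ∀ x : DihedralGroup 6, x ^ 2 ≠ 1 → x ^ 3 ≠ 1 → ∀ y, x ^ 3 * y = y * x ^ 3 := by
  decide

theorem big_eleven (h : Fintype.card F = 11) :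
    Big (Matrix.ProjectiveSpecialLinearGroup (Fin 2) F) := by
  have hodd : Odd (Fintype.card F) := by rw [h]; decide
  have h2 : (2 : F) ≠ 0 := (two_ne_zero_iff_odd F).2 hodd
  have hG : Nat.card (Matrix.ProjectiveSpecialLinearGroup (Fin 2) F) = 660 := by
    have := Cfsg.Agent.ClassicalGeometry.PSL2Basic.card_PSL2_odd (F := F) hodd
    rw [h] at this
    omega
  have hk : Nat.card (ConjClasses (Matrix.ProjectiveSpecialLinearGroup (Fin 2) F)) = 8 := by
    have := Cfsg.Agent.H525.PslK.psl2_odd (F := F) hodd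
    rw [h] at this
    omega
  -- order five
  have c5 : Col (Matrix.ProjectiveSpecialLinearGroup (Fin 2) F) {5} 2 (2 * (2 + 2)) := by
    have hc := card_range_dH (F := F) h2
    rw [h] at hc
    exact col_cc (cc_split (F := F) (by rw [h])) (n := 132) (by norm_num) (by omega) (by rw [hG])
      (by norm_num) le_rfl (by norm_num)
  -- order eleven
  have c11 : Col (Matrix.ProjectiveSpecialLinearGroup (Fin 2) F) {11} 2 (2 * (5 + 2)) := by
    have hcard : Nat.card (uH F).range = 11 := by
      rw [Nat.card_congr (MonoidHom.ofInjective (uH_injective h2)).toEquiv.symm,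
        Nat.card_congr (Multiplicative.toAdd (α := F)), Nat.card_eq_fintype_card, h]
    have hCC : CC (uH F).range := by
      constructor
      · rintro _ ⟨a, rfl⟩ _ ⟨b, rfl⟩
        rw [← map_mul, ← map_mul, mul_comm]
      · rintro _ ⟨a, rfl⟩ ha
        exact centralizer_uH h2 fun h => ha (by rw [h, map_one])
    exact col_cc hCC (n := 60) (by norm_num) hcard (by rw [hG]) (by norm_num) le_rfl (by norm_num)
  -- the non-split torus
  obtain ⟨C, H, hCH, hi, hcyc, hcard, ⟨e⟩, hTI⟩ := exists_psl_torus F
  rw [h] at hcard e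
  rw [show (11 + 1) / Nat.gcd 2 (11 - 1) = 6 by norm_num] at hcard e
  have hC : ∀ a ∈ C, ∀ b ∈ C, a * b = b * a := by
    intro a ha b hb
    have : (⟨a, ha⟩ : C) * ⟨b, hb⟩ = ⟨b, hb⟩ * ⟨a, ha⟩ := mul_comm' _ _
    exact congrArg Subtype.val this
  obtain ⟨c, hc⟩ := IsCyclic.exists_ofOrder_eq_natCard (α := C)
  rw [hcard] at hc
  have hcC : (c : Matrix.ProjectiveSpecialLinearGroup (Fin 2) F) ∈ C := c.2
  have hord : orderOf (c : Matrix.ProjectiveSpecialLinearGroup (Fin 2) F) = 6 := by
    rw [Subgroup.orderOf_coe, hc]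
  generalize (c : Matrix.ProjectiveSpecialLinearGroup (Fin 2) F) = x at hcC hord
  have hcent : ∀ y ∈ C, y ^ 2 ≠ 1 → nv y ≤ 6 := by
    intro y hy hy2
    refine (nv_le_card_centralizer y).trans ?_
    rw [cent_eq hC hCH hi e hTI hy (fun h => hy2 (by rw [h, one_pow])) ?_, hcard]
    intro h
    apply hy2
    have h3 := dih_center _ h
    rw [← map_pow, MulEquiv.map_eq_one_iff] at h3
    exact congrArg Subtype.val h3
  have ne : ∀ {k : ℕ}, ¬ 6 ∣ k → x ^ k ≠ 1 := by
    intro k hk h
    exact hk (hord ▸ orderOf_dvd_of_pow_eq_one h)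
  have c6 : Col (Matrix.ProjectiveSpecialLinearGroup (Fin 2) F) {6} 1 6 :=
    col_one hord (hcent x hcC (ne (by norm_num)))
  have c3 : Col (Matrix.ProjectiveSpecialLinearGroup (Fin 2) F) {3} 1 6 := by
    refine col_one (x := x ^ 2) ?_ (hcent _ (C.pow_mem hcC 2) ?_)
    · rw [orderOf_pow, hord]
      norm_num
    · rw [← pow_mul]
      exact ne (by norm_num)
  have c2 : Col (Matrix.ProjectiveSpecialLinearGroup (Fin 2) F) {2} 1 7 := by
    have h3 : orderOf (x ^ 3) = 2 := by
      rw [orderOf_pow, hord]
      norm_num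
    refine col_one h3 (nv_involution h3 hk ?_)
    have hx3 : x ^ 3 ∈ C := C.pow_mem hcC 3
    have hCe : Subgroup.centralizer ({x ^ 3} : Set (Matrix.ProjectiveSpecialLinearGroup (Fin 2) F)) = H := by
      apply le_antisymm
      · intro y hy
        by_contra hyH
        apply ne (k := 3) (by norm_num)
        refine hTI y hyH _ hx3 ?_
        rw [Subgroup.mem_centralizer_iff] at hy
        rw [mul_assoc, hy _ rfl, inv_mul_cancel_left]
        exact hx3
      · intro y hy
        rw [Subgroup.mem_centralizer_iff]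
        intro z hz
        rw [Set.mem_singleton_iff] at hz
        rw [hz]
        have h5 := dih_cube (e ⟨x, hCH hcC⟩) ?_ ?_ (e ⟨y, hy⟩)
        · rw [← map_pow, ← map_mul, ← map_mul] at h5
          exact congrArg Subtype.val (e.injective h5)
        · rw [← map_pow, Ne, MulEquiv.map_eq_one_iff]
          intro h6
          exact ne (k := 2) (by norm_num) (congrArg Subtype.val h6)
        · rw [← map_pow, Ne, MulEquiv.map_eq_one_iff]
          intro h6
          exact ne (k := 3) (by norm_num) (congrArg Subtype.val h6)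
    rw [hCe]
    have h6 := Subgroup.card_mul_index (C.subgroupOf H)
    have h7 : (C.subgroupOf H).index = 2 := hi
    rw [h7, Nat.card_congr (Subgroup.subgroupOfEquivOfLe hCH).toEquiv, hcard] at h6
    omega
  have hall := (((c5.union c11 (by decide)).union c6 (by decide)).union c3 (by decide)).union c2
    (by decide)
  exact hall.big (k := 8) hk.ge (by norm_num) (by norm_num)

/-- **`PSL(2, q)`, `q ≥ 8`, `q ≠ 9`.** -/
theorem big_psl2 {F : Type} [Field F] [Fintype F] (h8 : 8 ≤ Fintype.card F) (h9 : Fintype.card F ≠ 9) :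
    Big (Matrix.ProjectiveSpecialLinearGroup (Fin 2) F) := by
  rcases Nat.even_or_odd (Fintype.card F) with he | ho
  · exact big_even he h8
  · rw [Nat.odd_iff] at ho
    have hnot : Fintype.card F ≠ 15 := by
      intro h
      have h1 := FiniteField.isPrimePow_card F
      rw [h] at h1
      have : ¬ IsPrimePow 15 := by
        rw [isPrimePow_iff_unique_prime_dvd]
        rintro ⟨p, -, hp⟩
        have h3 := hp 3 ⟨by norm_num, by norm_num⟩
        have h5 := hp 5 ⟨by norm_num, by norm_num⟩
        omega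
      exact this h1
    have h4 : Fintype.card F % 4 = 1 ∨ Fintype.card F % 4 = 3 := by omega
    rcases h4 with h4 | h4
    · exact big_one h4 (by omega)
    · by_cases h11 : Fintype.card F = 11
      · exact big_eleven h11
      · exact big_three h4 (by omega)

end Cfsg.Agent.H681.ZerosPSL2
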